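import Cfsg.Agent.S3360

/-!
Solvable linear groups which are transitive on the lines and on the planes of a space of dimension
at least three.
-/

set_option autoImplicit false

open scoped Pointwise

namespace Cfsg.Agent.Lib.PlaneTrans

theorem card_ringAut {p n : ℕ} [Fact p.Prime] {F : Type*} [Field F] [Finite F]
    (hF : Nat.card F = p ^ n) : Nat.card (F ≃+* F) = n := by
  have : Fintype F := Fintype.ofFinite F
  have : CharP F p := by
    obtain ⟨r, hr⟩ := CharP.exists F
    have hrp : r.Prime := CharP.char_is_prime F r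
    obtain ⟨k, -, hk⟩ := FiniteField.card F r
    rw [← Nat.card_eq_fintype_card, hF] at hk
    have hdvd : r ∣ p ^ n := hk ▸ dvd_pow_self r k.ne_zero
    rwa [← (Nat.prime_dvd_prime_iff_eq hrp Fact.out).1 (hrp.dvd_of_dvd_pow hdvd)]
  letI := ZMod.algebra F p
  let e : (F ≃ₐ[ZMod p] F) ≃ (F ≃+* F) :=
    { toFun := fun s => s.toRingEquiv
      invFun := fun s => AlgEquiv.ofRingEquiv (f := s) fun x =>
        DFunLike.congr_fun (RingHom.ext_zmod (s.toRingHom.comp (algebraMap (ZMod p) F))
          (algebraMap (ZMod p) F)) x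
      left_inv := fun s => by ext; rfl
      right_inv := fun s => by ext; rfl }
  rw [← Nat.card_congr e, IsGalois.card_aut_eq_finrank]
  have h := Module.natCard_eq_pow_finrank (K := ZMod p) (V := F)
  rw [hF, Nat.card_zmod] at h
  exact (Nat.pow_right_injective (Fact.out : p.Prime).two_le h).symm

/-- The order of a semilinear group. -/
theorem semilinear_card {p n : ℕ} [Fact p.Prime] {V : Type*} [AddCommGroup V] {G : Type*} [Group G]
    [Finite G] {F : Type*} [Field F] [Finite F] (hF : Nat.card F = p ^ n) (e : V ≃+ F)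
    (ρ : G → V → V) (hmul : ∀ g h v, ρ (g * h) v = ρ g (ρ h v)) (h1 : ∀ v, ρ 1 v = v)
    (hinj : ∀ g, (∀ v, ρ g v = v) → g = 1)
    (hsl : ∀ g : G, ∃ (a : F) (σ : F ≃+* F), ∀ v, e (ρ g v) = a * σ (e v)) :
    Nat.card G ∣ n * (p ^ n - 1) ∧ ∃ χ : G →* (F ≃+* F), ∀ g, ∃ a : Fˣ, ∀ v,
      e (ρ g v) = a * χ g (e v) := by
  classical
  choose a σ ha using hsl
  have ha0 : ∀ g, a g ≠ 0 := fun g h => by
    have h' := ha g (ρ g⁻¹ (e.symm 1))
    rw [h, zero_mul, ← hmul, mul_inv_cancel, h1, e.apply_symm_apply] at h'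
    exact one_ne_zero h'
  have hmul' : ∀ g h x, a (g * h) * σ (g * h) x = a g * σ g (a h) * σ g (σ h x) := fun g h x => by
    have h0 := ha (g * h) (e.symm x)
    rw [e.apply_symm_apply, hmul, ha, ha, e.apply_symm_apply, map_mul, ← mul_assoc] at h0
    exact h0.symm
  have haa : ∀ g h, a (g * h) = a g * σ g (a h) := fun g h => by
    simpa using hmul' g h 1
  have hσ : ∀ g h x, σ (g * h) x = σ g (σ h x) := fun g h x => by
    have h0 := hmul' g h x
    rw [← haa] at h0
    exact mul_left_cancel₀ (ha0 _) h0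
  let χ : G →* (F ≃+* F) := MonoidHom.mk' σ fun g h => RingEquiv.ext fun x => hσ g h x
  refine ⟨?_, χ, fun g => ⟨Units.mk0 _ (ha0 g), ha g⟩⟩
  let κ : χ.ker →* Fˣ := MonoidHom.mk' (fun g => Units.mk0 _ (ha0 g)) fun g h => Units.ext (by
    show a ((g : G) * h) = a g * a h
    rw [haa, show σ (g : G) = 1 from g.2]; rfl)
  have hκ : Function.Injective κ := by
    rw [← MonoidHom.ker_eq_bot_iff, Subgroup.eq_bot_iff_forall]
    intro g hg
    have hg' : a (g : G) = 1 := congrArg Units.val hg
    refine Subtype.ext (hinj _ fun v => e.injective ?_)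
    rw [ha, hg', show σ (g : G) = 1 from g.2, one_mul]; rfl
  have hc1 : Nat.card χ.ker ∣ p ^ n - 1 := by
    rw [← hF, ← Nat.card_units]; exact Subgroup.card_dvd_of_injective κ hκ
  have hc2 : Nat.card χ.range ∣ n := by
    rw [← card_ringAut hF]; exact Subgroup.card_subgroup_dvd_card χ.range
  rw [← Subgroup.card_mul_index χ.ker, Subgroup.index_ker, mul_comm]
  exact mul_dvd_mul hc2 hc1

variable {p : ℕ} [hp : Fact p.Prime] {V : Type*} [AddCommGroup V] [Module (ZMod p) V] [Finite V]

local notation "W₀" => (Fin 2 → ZMod p)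

theorem card_inj (h : 2 ≤ Module.finrank (ZMod p) V) :
    Nat.card {ψ : W₀ →ₗ[ZMod p] V // Function.Injective ψ} =
      (p ^ Module.finrank (ZMod p) V - 1) * (p ^ Module.finrank (ZMod p) V - p) := by
  let E : (Fin 2 → V) ≃ (W₀ →ₗ[ZMod p] V) := ((Pi.basisFun (ZMod p) (Fin 2)).constr ℕ).toEquiv
  have hE : ∀ s, E s = Fintype.linearCombination (ZMod p) s := fun s => by
    refine LinearMap.ext fun x => ?_
    simp [E, Module.Basis.constr_apply_fintype, Fintype.linearCombination_apply]
  rw [← Nat.card_congr (E.subtypeEquiv (p := fun s => LinearIndependent (ZMod p) s) fun s => by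
    rw [hE, linearIndependent_iff_injective_fintypeLinearCombination]), card_linearIndependent h]
  simp [Fin.prod_univ_two, ZMod.card]

/-- An automorphism group of a space of four dimensions over the field with three elements has no
commuting elements of orders five and thirteen. -/
theorem no_commuting {W : Type*} [AddCommGroup W] [Finite W] (hW : Nat.card W = 81)
    {S : Type*} [Group S] [Finite S] [DistribMulAction S W] [FaithfulSMul S W]
    (y z : S) (hy : orderOf y = 13) (hz : orderOf z = 5) (hc : Commute y z) : False := by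
  classical
  have : Fact (Nat.Prime 13) := ⟨by norm_num⟩
  have : Fact (Nat.Prime 5) := ⟨by norm_num⟩
  have key : ∀ (r : ℕ) [Fact r.Prime] (u : S), orderOf u = r →
      ∀ (A : AddSubgroup W), (∀ g ∈ Subgroup.zpowers u, ∀ v ∈ A, g • v ∈ A) →
      Nat.card A ≡ Nat.card {v : A // u • (v : W) = v} [MOD r] := by
    intro r _ u hu A hA
    letI : MulAction (Subgroup.zpowers u) A :=
      { smul := fun g v => ⟨(g : S) • (v : W), hA g g.2 v v.2⟩
        one_smul := fun v => Subtype.ext (one_smul S (v : W))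
        mul_smul := fun g h v => Subtype.ext (mul_smul (g : S) (h : S) (v : W)) }
    have hp : IsPGroup r (Subgroup.zpowers u) :=
      IsPGroup.of_card (n := 1) (by rw [Nat.card_zpowers, hu, pow_one])
    refine (hp.card_modEq_card_fixedPoints A).trans ?_
    rw [Nat.card_congr (Equiv.subtypeEquivRight fun v => ?_)]
    refine ⟨fun hv => congrArg Subtype.val (hv ⟨u, Subgroup.mem_zpowers u⟩), fun hv g => Subtype.ext ?_⟩
    show (g : S) • (v : W) = v
    have hg : (g : S) ∈ MulAction.stabilizer S (v : W) :=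
      Subgroup.zpowers_le.2 (show u ∈ MulAction.stabilizer S (v : W) from hv) g.2
    exact hg
  let Fx : S → AddSubgroup W := fun u =>
    AddMonoidHom.eqLocus (DistribMulAction.toAddMonoidHom W u) (AddMonoidHom.id W)
  have hFx : ∀ u v, v ∈ Fx u ↔ u • v = v := fun u v => Iff.rfl
  have hcard : ∀ (r : ℕ) [Fact r.Prime] (u : S), orderOf u = r → 81 ≡ Nat.card (Fx u) [MOD r] := by
    intro r _ u hu
    have h := key r u hu ⊤ fun _ _ _ _ => AddSubgroup.mem_top _
    rw [AddSubgroup.card_top, hW] at h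
    refine h.trans ?_
    rw [Nat.card_congr
      ({ toFun := fun v => ⟨v.1, v.2⟩
         invFun := fun v => ⟨⟨v.1, AddSubgroup.mem_top _⟩, v.2⟩
         left_inv := fun v => rfl
         right_inv := fun v => rfl } : {v : (⊤ : AddSubgroup W) // u • (v : W) = v} ≃ Fx u)]
  have hdiv : ∀ A : AddSubgroup W, Nat.card A ∈ ({1, 3, 9, 27, 81} : Finset ℕ) := fun A => by
    have h := A.card_addSubgroup_dvd_card
    rw [hW, show 81 = 3 ^ 4 by norm_num, Nat.dvd_prime_pow Nat.prime_three] at h
    obtain ⟨k, hk, h⟩ := h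
    rw [h]
    interval_cases k <;> decide
  have hne : ∀ (r : ℕ) [Fact r.Prime] (u : S), orderOf u = r → Nat.card (Fx u) ≠ 81 := by
    intro r hr u hu h
    have : Fx u = ⊤ := AddSubgroup.eq_top_of_card_eq _ (by rw [h, hW])
    have hu1 : u = 1 := FaithfulSMul.eq_of_smul_eq_smul fun v : W => by
      rw [one_smul]
      exact (hFx u v).1 (this ▸ AddSubgroup.mem_top v)
    rw [hu1, orderOf_one] at hu
    exact hr.out.ne_one hu.symm
  have hy3 : Nat.card (Fx y) = 3 := by
    have h1 := hcard 13 y hy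
    have h2 := hdiv (Fx y)
    have h3 := hne 13 y hy
    simp only [Finset.mem_insert, Finset.mem_singleton] at h2
    rcases h2 with h | h | h | h | h <;> rw [h] at h1 h3 ⊢ <;> first
      | rfl
      | exact absurd h1 (by decide)
      | exact absurd rfl h3
  have hzS : ∀ g ∈ Subgroup.zpowers z, ∀ v ∈ Fx y, g • v ∈ Fx y := fun g hg v hv => by
    rw [hFx] at hv ⊢
    obtain ⟨k, rfl⟩ := Subgroup.mem_zpowers_iff.1 hg
    rw [smul_smul, (hc.zpow_right k).eq, mul_smul, hv]
  have hle : Fx y ≤ Fx z := by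
    have h := key 5 z hz (Fx y) hzS
    rw [hy3] at h
    have hb : Nat.card {v : Fx y // z • (v : W) = v} ≤ 3 :=
      hy3 ▸ Nat.card_le_card_of_injective _ Subtype.val_injective
    have h3 : Nat.card {v : Fx y // z • (v : W) = v} = Nat.card (Fx y) := by
      rw [hy3]
      generalize Nat.card {v : Fx y // z • (v : W) = v} = c at h hb
      interval_cases c <;> first
        | rfl
        | exact absurd h (by decide)
    intro v hv
    have hb := (Nat.bijective_iff_injective_and_card
      (Subtype.val : {v : Fx y // z • (v : W) = v} → Fx y)).2 ⟨Subtype.val_injective, h3⟩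
    obtain ⟨w, hw⟩ := hb.2 ⟨v, hv⟩
    have := w.2
    rw [hw] at this
    exact this
  have h1 := hcard 5 z hz
  have h2 := hdiv (Fx z)
  have h3 := hne 5 z hz
  have h4 : 3 ≤ Nat.card (Fx z) := hy3 ▸ AddSubgroup.card_le_of_le hle
  simp only [Finset.mem_insert, Finset.mem_singleton] at h2
  rcases h2 with h | h | h | h | h <;> rw [h] at h1 h3 h4 <;> first
    | omega
    | exact absurd h1 (by decide)
    | exact absurd rfl h3

theorem n_cases {p n : ℕ} (hp : p.Prime) (hn : 3 ≤ n) (h : p ^ (n - 1) - 1 ∣ n * (p ^ 2 - 1)) :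
    n = 3 ∨ (n = 5 ∧ p = 2) := by
  have h2 := hp.two_le
  have hp2 : 4 ≤ p ^ 2 := by nlinarith
  have hle : p ^ (n - 1) - 1 ≤ n * (p ^ 2 - 1) :=
    Nat.le_of_dvd (Nat.mul_pos (by omega) (by omega)) h
  rcases (show n = 3 ∨ n = 4 ∨ n = 5 ∨ 6 ≤ n by omega) with rfl | rfl | rfl | hn6
  · exact Or.inl rfl
  · exfalso
    have hp4 : p < 5 := by
      by_contra! hc
      have : p ^ 2 * 5 ≤ p ^ 3 := by rw [pow_succ p 2]; exact Nat.mul_le_mul_left _ hc
      simp only [show (4 : ℕ) - 1 = 3 from rfl] at hle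
      omega
    interval_cases p
    all_goals (revert h hp; norm_num)
  · refine Or.inr ⟨rfl, ?_⟩
    have hp3 : p < 4 := by
      by_contra! hc
      have : p ^ 2 * 16 ≤ p ^ 4 := by
        rw [show p ^ 4 = p ^ 2 * p ^ 2 by ring]; exact Nat.mul_le_mul_left _ (by nlinarith)
      simp only [show (5 : ℕ) - 1 = 4 from rfl] at hle
      omega
    interval_cases p
    all_goals (revert h hp; norm_num)
  · exfalso
    have hA : n ≤ p ^ (n - 3) := by
      refine le_trans ?_ (Nat.pow_le_pow_left h2 _)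
      have haux : ∀ m, 3 ≤ m → m + 3 ≤ 2 ^ m := by
        intro m hm
        induction m, hm using Nat.le_induction with
        | base => norm_num
        | succ m _ ih => rw [pow_succ]; omega
      have := haux (n - 3) (by omega)
      omega
    have hB : p ^ (n - 1) = p ^ (n - 3) * p ^ 2 := by rw [← pow_add]; congr 1; omega
    have hC : n * (p ^ 2 - 1) ≤ p ^ (n - 3) * (p ^ 2 - 1) := Nat.mul_le_mul_right _ hA
    have : 8 ≤ p ^ (n - 3) := le_trans (by norm_num) ((Nat.pow_le_pow_right (by norm_num)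
      (show 3 ≤ n - 3 by omega)).trans (Nat.pow_le_pow_left h2 _))
    rw [hB] at hle
    have hsub : p ^ (n - 3) ≤ p ^ (n - 3) * p ^ 2 := Nat.le_mul_of_pos_right _ (by omega)
    have hn' : n * (p ^ 2 - 1) = n * p ^ 2 - n := by rw [Nat.mul_sub, mul_one]
    have hP' : p ^ (n - 3) * (p ^ 2 - 1) = p ^ (n - 3) * p ^ 2 - p ^ (n - 3) := by
      rw [Nat.mul_sub, mul_one]
    omega

/-- Main result on linear groups. -/
theorem semilinear_of_trans {H : Type*} [Group H] [Finite H] (hs : Group.IsSolvable H)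
    (ρ : H →* (V ≃ₗ[ZMod p] V)) (hρ : Function.Injective ρ) {n : ℕ}
    (hdim : Module.finrank (ZMod p) V = n) (hn : 3 ≤ n)
    (htr : ∀ W W' : Submodule (ZMod p) V, Module.finrank (ZMod p) W = Module.finrank (ZMod p) W' →
      Module.finrank (ZMod p) W ≤ 2 → ∃ h : H, W.map (ρ h : V →ₗ[ZMod p] V) = W') :
    (∃ (F : Type) (_ : Field F) (_ : Fintype F) (e : V ≃+ F),
      ∀ g : H, ∃ (a : F) (σ : F ≃+* F), ∀ v : V, e (ρ g v) = a * σ (e v)) ∧
    (n = 3 ∨ (n = 5 ∧ p = 2)) ∧
    (p = 2 → (2 ^ n - 1) * (2 ^ n - 2) ∣ Nat.card H * 6) := by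
  classical
  have : Nontrivial V := Module.nontrivial_of_finrank_pos (R := ZMod p) (by omega)
  let sc : (ZMod p)ˣ →* (V ≃ₗ[ZMod p] V) :=
    MonoidHom.mk' (fun c => DistribMulAction.toLinearEquiv (ZMod p) V c)
      fun c d => LinearEquiv.ext fun v => mul_smul c d v
  have hsc : ∀ c v, sc c v = c • v := fun c v => rfl
  have hcomm : ∀ (h : H) (c : (ZMod p)ˣ), Commute (ρ h) (sc c) := fun h c => LinearEquiv.ext fun v => by
    show ρ h (sc c v) = sc c (ρ h v)
    rw [hsc, hsc, Units.smul_def, Units.smul_def, map_smul]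
  have : Finite (V ≃ₗ[ZMod p] V) := Finite.of_injective _ DFunLike.coe_injective
  let φ : H × (ZMod p)ˣ →* (V ≃ₗ[ZMod p] V) := MonoidHom.noncommCoprod ρ sc hcomm
  have hφ : ∀ h c v, φ (h, c) v = ρ h (c • v) := fun h c v => rfl
  haveI := hs
  have hR : Group.IsSolvable φ.range :=
    Group.isSolvable_of_surjective (f := φ.rangeRestrict) φ.rangeRestrict_surjective
  have hspan : ∀ v : V, v ≠ 0 → Module.finrank (ZMod p) (Submodule.span (ZMod p) {v}) = 1 :=
    fun v hv => finrank_span_singleton hv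
  have htv : ∀ v w : V, v ≠ 0 → w ≠ 0 → ∃ g : φ.range, (φ.range).subtype g v = w := by
    intro v w hv hw
    obtain ⟨h, hh⟩ := htr (Submodule.span (ZMod p) {v}) (Submodule.span (ZMod p) {w})
      (by rw [hspan v hv, hspan w hw]) (by rw [hspan v hv]; norm_num)
    have hm : ρ h v ∈ Submodule.span (ZMod p) {w} :=
      hh ▸ Submodule.mem_map_of_mem (Submodule.mem_span_singleton_self v)
    obtain ⟨c, hc⟩ := Submodule.mem_span_singleton.1 hm
    have hc0 : c ≠ 0 := fun h0 => hv ((ρ h).map_eq_zero_iff.1 (by rw [← hc, h0, zero_smul]))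
    refine ⟨⟨_, (h, (Units.mk0 c hc0)⁻¹), rfl⟩, ?_⟩
    show φ (h, (Units.mk0 c hc0)⁻¹) v = w
    rw [hφ, Units.smul_def, map_smul, ← hc, smul_smul, Units.val_inv_eq_inv_val, Units.val_mk0,
      inv_mul_cancel₀ hc0, one_smul]
  -- the action on pairs of independent vectors
  let A := (W₀ ≃ₗ[ZMod p] W₀)
  letI act : MulAction (φ.range × A) {ψ : W₀ →ₗ[ZMod p] V // Function.Injective ψ} :=
    { smul := fun g ψ => ⟨(g.1 : V ≃ₗ[ZMod p] V).toLinearMap ∘ₗ ψ.1 ∘ₗ g.2.symm.toLinearMap,
        (g.1 : V ≃ₗ[ZMod p] V).injective.comp (ψ.2.comp g.2.symm.injective)⟩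
      one_smul := fun ψ => Subtype.ext (LinearMap.ext fun x => rfl)
      mul_smul := fun g h ψ => Subtype.ext (LinearMap.ext fun x => rfl) }
  have hact : ∀ (g : φ.range × A) (ψ : {ψ : W₀ →ₗ[ZMod p] V // Function.Injective ψ}) x,
      (g • ψ).1 x = (g.1 : V ≃ₗ[ZMod p] V) (ψ.1 (g.2.symm x)) := fun g ψ x => rfl
  have htrans : MulAction.IsPretransitive (φ.range × A)
      {ψ : W₀ →ₗ[ZMod p] V // Function.Injective ψ} := ⟨fun ψ χ => by
    have hr : ∀ ψ : {ψ : W₀ →ₗ[ZMod p] V // Function.Injective ψ},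
        Module.finrank (ZMod p) (LinearMap.range ψ.1) = 2 := fun ψ => by
      rw [LinearMap.finrank_range_of_inj ψ.2, Module.finrank_fin_fun]
    obtain ⟨h, hh⟩ := htr (LinearMap.range ψ.1) (LinearMap.range χ.1) (by rw [hr, hr]) (hr ψ).le
    have hm : ∀ x, ρ h (ψ.1 x) ∈ LinearMap.range χ.1 := fun x =>
      hh ▸ Submodule.mem_map_of_mem (LinearMap.mem_range_self _ x)
    let β : W₀ →ₗ[ZMod p] W₀ := (LinearEquiv.ofInjective χ.1 χ.2).symm.toLinearMap ∘ₗ
      (((ρ h).toLinearMap ∘ₗ ψ.1).codRestrict _ hm)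
    have hβ : ∀ x, χ.1 (β x) = ρ h (ψ.1 x) := fun x =>
      congrArg Subtype.val ((LinearEquiv.ofInjective χ.1 χ.2).apply_symm_apply ⟨_, hm x⟩)
    have hβi : Function.Injective β := fun x y hxy => ψ.2 ((ρ h).injective (by rw [← hβ, ← hβ, hxy]))
    let E : A := LinearEquiv.ofBijective β ⟨hβi, LinearMap.injective_iff_surjective.1 hβi⟩
    refine ⟨(⟨_, (h, 1), rfl⟩, E), Subtype.ext (LinearMap.ext fun x => ?_)⟩
    rw [hact]
    show φ (h, 1) (ψ.1 (E.symm x)) = _
    rw [hφ, one_smul, ← hβ]
    exact congrArg χ.1 (E.apply_symm_apply x)⟩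
  have hA : Nat.card A = (p ^ 2 - 1) * (p ^ 2 - p) := by
    have h2 := card_inj (p := p) (V := W₀) (by rw [Module.finrank_fin_fun])
    rw [Module.finrank_fin_fun] at h2
    rw [← h2]
    exact Nat.card_congr
      { toFun := fun g => ⟨g.toLinearMap, g.injective⟩
        invFun := fun ψ => LinearEquiv.ofBijective ψ.1 ⟨ψ.2, LinearMap.injective_iff_surjective.1 ψ.2⟩
        left_inv := fun g => LinearEquiv.ext fun x => rfl
        right_inv := fun ψ => Subtype.ext (LinearMap.ext fun x => rfl) }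
  obtain ⟨ψ₀⟩ : Nonempty {ψ : W₀ →ₗ[ZMod p] V // Function.Injective ψ} := by
    refine (Nat.card_pos_iff.1 ?_).1
    rw [card_inj (by omega), hdim]
    have : p ^ 2 ≤ p ^ n := Nat.pow_le_pow_right hp.out.pos (by omega)
    have := hp.out.two_le
    have : p < p ^ 2 := by nlinarith
    exact Nat.mul_pos (Nat.sub_pos_of_lt (by omega)) (Nat.sub_pos_of_lt (by omega))
  have hdvd : (p ^ n - 1) * (p ^ n - p) * (p - 1) ∣ Nat.card φ.range * ((p ^ 2 - 1) * (p ^ 2 - p)) := by
    rw [← hA, ← Nat.card_prod, ← hdim, ← card_inj (by omega),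
      ← Subgroup.index_mul_card (MulAction.stabilizer (φ.range × A) ψ₀),
      MulAction.index_stabilizer_of_transitive]
    refine mul_dvd_mul_left _ ?_
    let d : (ZMod p)ˣ →* MulAction.stabilizer (φ.range × A) ψ₀ :=
      MonoidHom.mk' (fun c => ⟨(⟨_, (1, c), rfl⟩, DistribMulAction.toLinearEquiv (ZMod p) W₀ c),
        Subtype.ext (LinearMap.ext fun x => by
          rw [hact]
          show φ (1, c) (ψ₀.1 (c⁻¹ • x)) = _
          rw [hφ, map_one, LinearEquiv.coe_one, id_eq, Units.smul_def, Units.smul_def, map_smul, smul_smul,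
            Units.mul_inv, one_smul])⟩)
        fun c d => Subtype.ext (Prod.ext (Subtype.ext (by
          show φ (1, c * d) = φ (1, c) * φ (1, d)
          rw [← map_mul, Prod.mk_mul_mk, one_mul])) (LinearEquiv.ext fun x => mul_smul c d x))
    have hd : Function.Injective d := fun c c' h => by
      have h' : ((c : ZMod p) • (fun _ => 1 : W₀)) 0 = ((c' : ZMod p) • (fun _ => 1 : W₀)) 0 :=
        congrArg (fun g => (g.1.2 : A) (fun _ => (1 : ZMod p)) 0) h
      exact Units.ext (by simpa using h')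
    calc p - 1 = Nat.card (ZMod p)ˣ := by
          rw [Nat.card_eq_fintype_card, ZMod.card_units]
      _ ∣ _ := Subgroup.card_dvd_of_injective d hd
  have hVcard : Nat.card V = p ^ n := by
    rw [Module.natCard_eq_pow_finrank (K := ZMod p), Nat.card_zmod, hdim]
  rcases S3360.result p hR φ.range.subtype φ.range.subtype_injective htv with hsl | hex
  · obtain ⟨F, _, _, e, he⟩ := hsl
    have hF : Nat.card F = p ^ n := by rw [← Nat.card_congr e.toEquiv, hVcard]
    obtain ⟨hcard, -⟩ := semilinear_card hF e (fun g v => (φ.range.subtype g) v)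
      (fun g h v => rfl) (fun v => rfl)
      (fun g hg => Subtype.ext (LinearEquiv.ext hg)) he
    refine ⟨⟨F, inferInstance, inferInstance, e, fun g => ?_⟩, n_cases hp.out hn ?_, fun h2 => ?_⟩
    · obtain ⟨a, σ, h⟩ := he ⟨_, (g, 1), rfl⟩
      refine ⟨a, σ, fun v => ?_⟩
      rw [← h v]
      show e (ρ g v) = e (φ (g, 1) v)
      rw [hφ, one_smul]
    · have h := hdvd.trans (mul_dvd_mul_right hcard _)
      have h2 := hp.out.two_le
      have e1 : p ^ n - p = p * (p ^ (n - 1) - 1) := by
        rw [Nat.mul_sub, mul_one, ← pow_succ', Nat.sub_add_cancel (by omega)]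
      have e2 : p ^ 2 - p = p * (p - 1) := by rw [Nat.mul_sub, mul_one, sq]
      rw [e1, e2] at h
      have hpn : 0 < p ^ n - 1 := by
        have : p ^ 2 ≤ p ^ n := Nat.pow_le_pow_right hp.out.pos (by omega)
        have : 4 ≤ p ^ 2 := by nlinarith
        omega
      refine Nat.dvd_of_mul_dvd_mul_left (Nat.mul_pos (Nat.mul_pos hpn hp.out.pos)
        (show 0 < p - 1 by omega)) ?_
      refine Eq.subst (motive := fun x => x ∣ _) ?_ (Eq.subst (motive := fun x => _ ∣ x) ?_ h) <;> ring
    · subst h2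
      have h : (2 ^ n - 1) * (2 ^ n - 2) * (2 - 1) ∣ Nat.card φ.range * ((2 ^ 2 - 1) * (2 ^ 2 - 2)) := hdvd
      norm_num only at h
      rw [mul_one] at h
      refine h.trans (mul_dvd_mul_right ?_ _)
      have hrr : φ.range ≤ ρ.range := by
        rintro _ ⟨⟨g, c⟩, rfl⟩
        rw [Subsingleton.elim c 1]
        exact ⟨g, LinearEquiv.ext fun v => by rw [hφ, one_smul]⟩
      exact (Subgroup.card_dvd_of_le hrr).trans (by
        rw [← Nat.card_congr (MonoidHom.ofInjective hρ).toEquiv])
  · exfalso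
    have hp81 : p = 3 ∧ n = 4 := by
      rw [hVcard] at hex
      simp only [Set.mem_insert_iff, Set.mem_singleton_iff] at hex
      have hpp : ∀ r k : ℕ, r.Prime → p ^ n = r ^ k → p = r ∧ n = k := fun r k hr e => by
        have h1 : p = r := (Nat.prime_dvd_prime_iff_eq hp.out hr).1
          (hp.out.dvd_of_dvd_pow (e ▸ dvd_pow_self p (by omega)))
        exact ⟨h1, Nat.pow_right_injective hp.out.two_le (show p ^ n = p ^ k by rw [e, h1])⟩
      rcases hex with h | h | h | h | h | h
      · have := hpp 3 2 (by norm_num) (by rw [h]; norm_num); omega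
      · have := hpp 5 2 (by norm_num) (by rw [h]; norm_num); omega
      · have := hpp 7 2 (by norm_num) (by rw [h]; norm_num); omega
      · have := hpp 11 2 (by norm_num) (by rw [h]; norm_num); omega
      · have := hpp 23 2 (by norm_num) (by rw [h]; norm_num); omega
      · exact hpp 3 4 (by norm_num) (by rw [h]; norm_num)
    obtain ⟨rfl, rfl⟩ := hp81
    have h260 : 260 ∣ Nat.card φ.range := by
      have h : 260 * 48 ∣ Nat.card φ.range * 48 := by
        refine dvd_trans ?_ hdvd
        norm_num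
      exact Nat.dvd_of_mul_dvd_mul_right (show 0 < 48 by norm_num) h
    have hGL : Nat.card φ.range ∣ 24261120 := by
      let b := Module.finBasisOfFinrankEq (ZMod 3) V hdim
      have h := Matrix.card_GL_field (𝔽 := ZMod 3) 4
      have e : (V ≃ₗ[ZMod 3] V) ≃* GL (Fin 4) (ZMod 3) :=
        ((LinearMap.GeneralLinearGroup.generalLinearEquiv (ZMod 3) V).symm).trans
          (Units.mapEquiv (LinearMap.toMatrixAlgEquiv b).toMulEquiv)
      rw [Fin.prod_univ_four, ZMod.card] at h
      norm_num only [Fin.val_zero, Fin.val_one, Fin.val_two, show ((3 : Fin 4) : ℕ) = 3 from rfl] at h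
      rw [← h, ← Nat.card_congr e.toEquiv]
      exact Subgroup.card_subgroup_dvd_card _
    have hcop : Nat.Coprime 65 (Nat.card φ.range / 65) := by
      obtain ⟨c, hc⟩ := dvd_trans (show 65 ∣ 260 by norm_num) h260
      rw [hc, Nat.mul_div_cancel_left _ (by norm_num)]
      rw [hc, show 24261120 = 65 * 373248 by norm_num] at hGL
      exact Nat.Coprime.coprime_dvd_right (Nat.dvd_of_mul_dvd_mul_left (by norm_num) hGL) (by norm_num)
    haveI := hR
    obtain ⟨S, hS⟩ := Hall.exists_subgroup_card_eq (m := 65) (n := Nat.card φ.range / 65)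
      (Nat.mul_div_cancel' (dvd_trans (show 65 ∣ 260 by norm_num) h260)).symm hcop
    haveI : Fact (Nat.Prime 13) := ⟨by norm_num⟩
    haveI : Fact (Nat.Prime 5) := ⟨by norm_num⟩
    have huniq : ∀ (r : ℕ) [Fact r.Prime], (65 = r * 5 ∨ 65 = r * 13) → ∀ P : Sylow r S,
        (P : Subgroup S).Normal := by
      intro r hr h P
      have h1 : Nat.card (Sylow r S) ∣ 65 := hS ▸ (P.card_dvd_index.trans (Subgroup.index_dvd_card _))
      have h2 := card_sylow_modEq_one r S
      have hmem : Nat.card (Sylow r S) ∈ Nat.divisors 65 := Nat.mem_divisors.2 ⟨h1, by norm_num⟩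
      rw [show Nat.divisors 65 = {1, 5, 13, 65} by decide] at hmem
      have hone : Nat.card (Sylow r S) = 1 := by
        simp only [Finset.mem_insert, Finset.mem_singleton] at hmem
        rcases h with h | h <;>
          obtain rfl : r = _ := Nat.eq_div_of_mul_eq_left (by norm_num) h.symm <;>
          rcases hmem with h' | h' | h' | h' <;> rw [h'] at h2 ⊢ <;> revert h2 <;> norm_num [Nat.ModEq]
      haveI : Subsingleton (Sylow r S) := (Nat.card_eq_one_iff_unique.1 hone).1
      exact P.normal_of_subsingleton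
    obtain ⟨y, hy⟩ := exists_prime_orderOf_dvd_card' (G := S) 13 (by rw [hS]; norm_num)
    obtain ⟨z, hz⟩ := exists_prime_orderOf_dvd_card' (G := S) 5 (by rw [hS]; norm_num)
    obtain ⟨P, hP⟩ := (IsPGroup.of_card (p := 13) (n := 1)
      (by rw [Nat.card_zpowers, hy, pow_one] : Nat.card (Subgroup.zpowers y) = 13 ^ 1)).exists_le_sylow
    obtain ⟨R, hR'⟩ := (IsPGroup.of_card (p := 5) (n := 1)
      (by rw [Nat.card_zpowers, hz, pow_one] : Nat.card (Subgroup.zpowers z) = 5 ^ 1)).exists_le_sylow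
    have hyz : Commute y z := Subgroup.commute_of_normal_of_disjoint _ _ (huniq 13 (Or.inl rfl) P)
      (huniq 5 (Or.inr rfl) R) (IsPGroup.disjoint_of_ne 13 5 (by norm_num) _ _ P.2 R.2) y z
      (hP (Subgroup.mem_zpowers y)) (hR' (Subgroup.mem_zpowers z))
    exact no_commuting hVcard y z hy hz hyz

end Cfsg.Agent.Lib.PlaneTrans
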