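import Cfsg.Agent.Lib.PlaneTrans.Basic
import Cfsg.Agent.Lib.Components.PComponent
import Cfsg.Prelude.Def_Perm

/-!
Groups with a normal elementary abelian subgroup, a solvable complement which is transitive on its
subgroups of order `p` and `p ^ 2`.
-/

set_option autoImplicit false

namespace Cfsg.Agent.Lib.PlaneTrans

variable {p : ℕ} [hp : Fact p.Prime]

/-- A normal abelian Sylow subgroup is its own centralizer when the `p'`-core is trivial. -/
theorem centralizer_eq {Q : Type*} [Group Q] [Finite Q] (A : Subgroup Q) [A.Normal]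
    (hA : IsPGroup p A) (hAc : IsMulCommutative A) (hidx : ¬ p ∣ A.index)
    (hO : Cfsg.pPrimeCore p Q = ⊥) : Subgroup.centralizer (A : Set Q) = A := by
  set C := Subgroup.centralizer (A : Set Q) with hC
  have hAC : A ≤ C := fun a ha => Subgroup.mem_centralizer_iff.2 fun b hb =>
    congrArg Subtype.val (hAc.1.1 (⟨b, hb⟩ : A) ⟨a, ha⟩)
  let A' := A.subgroupOf C
  have hAp : IsPGroup p A' := hA.of_equiv (Subgroup.subgroupOfEquivOfLe hAC).symm
  have hidx' : ¬ p ∣ A'.index := fun h => hidx (h.trans (Subgroup.relIndex_dvd_index_of_normal A C))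
  have hcop : Nat.Coprime (Nat.card A') A'.index := by
    obtain ⟨k, hk⟩ := IsPGroup.iff_card.1 hAp
    rw [hk]
    exact Nat.Coprime.pow_left k ((Nat.Prime.coprime_iff_not_dvd hp.out).2 hidx')
  obtain ⟨R, hR⟩ := Subgroup.exists_right_complement'_of_coprime (N := A') hcop
  have hcent : ∀ a ∈ A', ∀ x : C, x * a = a * x := fun a ha x => Subtype.ext
    (Subgroup.mem_centralizer_iff.1 x.2 (a : Q) ha).symm
  have hRn : R.Normal := ⟨fun r hr x => by
    obtain ⟨⟨a, s⟩, hx⟩ := hR.2 x
    rw [← hx]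
    show (a : C) * s * r * ((a : C) * s)⁻¹ ∈ R
    rw [show (a : C) * s * r * ((a : C) * s)⁻¹ = (a : C) * ((s : C) * r * (s : C)⁻¹) * (a : C)⁻¹ by group,
      ← hcent a a.2, mul_inv_cancel_right]
    exact R.mul_mem (R.mul_mem s.2 hr) (R.inv_mem s.2)⟩
  have hRcard : Nat.card R = A'.index := hR.symm.index_eq_card.symm
  have hRchar : R.Characteristic := by
    refine Subgroup.characteristic_iff_map_le.2 fun φ => ?_
    have hc : Nat.Coprime (Nat.card (R.map φ.toMonoidHom)) R.index := by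
      rw [Subgroup.card_map_of_injective φ.injective, hRcard, hR.index_eq_card]
      exact hcop.symm
    intro x hx
    have h1 : orderOf (QuotientGroup.mk' R x) ∣ Nat.card (R.map φ.toMonoidHom) :=
      (orderOf_map_dvd _ x).trans (Subgroup.orderOf_dvd_natCard _ hx)
    have h2 : orderOf (QuotientGroup.mk' R x) ∣ R.index := orderOf_dvd_natCard _
    exact (QuotientGroup.eq_one_iff x).1 (orderOf_eq_one_iff.1 (Nat.eq_one_of_dvd_coprimes hc h1 h2))
  have : (R.map C.subtype).Normal := inferInstance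
  have hbot : R.map C.subtype = ⊥ := by
    refine le_bot_iff.1 (hO ▸ Lib.Hall.le_pPrimeCore ?_)
    rw [Subgroup.card_map_of_injective C.subtype_injective, hRcard]
    exact ((Nat.Prime.coprime_iff_not_dvd hp.out).2 hidx').symm
  rw [Subgroup.map_eq_bot_iff_of_injective _ C.subtype_injective] at hbot
  rw [hbot, Subgroup.isComplement'_bot_right, Subgroup.subgroupOf_eq_top] at hR
  exact le_antisymm hR hAC

/-- The main structure result, with the normal subgroup presented as a vector space. -/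
theorem affine_structure' {Q : Type*} [Group Q] [Finite Q] (hs : Group.IsSolvable Q) (A : Subgroup Q)
    [A.Normal] {n : ℕ} (hn : 3 ≤ n) (hcard : Nat.card A = p ^ n)
    (hC : Subgroup.centralizer (A : Set Q) = A) (hidx : ¬ p ∣ A.index)
    (htr : ∀ B C : Subgroup Q, B ≤ A → C ≤ A → Nat.card B = Nat.card C →
      ∃ q : Q, B.map (MulAut.conj q).toMonoidHom = C)
    {V : Type*} [AddCommGroup V] [Module (ZMod p) V] [Finite V] (j : V → Q)
    (hj : ∀ u v, j (u + v) = j u * j v) (hji : Function.Injective j)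
    (hjA : ∀ q, q ∈ A ↔ ∃ v, j v = q) :
    (n = 3 ∨ (n = 5 ∧ p = 2)) ∧
    (∃ f : Q →* ↥(Cfsg.semiaffineGroup (GaloisField p n)), Function.Injective f ∧
      (p = 2 → n = 3 → Nat.card Q = 56 → ∀ q, (f q : Equiv.Perm (GaloisField p n)) ∈
        Cfsg.affineGroup (GaloisField p n))) ∧
    (p = 2 → (2 ^ n - 1) * (2 ^ n - 2) * 2 ^ n ∣ Nat.card Q * 6) ∧
    Nat.card Q ∣ p ^ n * (n * (p ^ n - 1)) := by
  classical
  have hcop : Nat.Coprime (Nat.card A) A.index := by
    rw [hcard]; exact Nat.Coprime.pow_left n ((Nat.Prime.coprime_iff_not_dvd hp.out).2 hidx)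
  obtain ⟨H, hH⟩ := Subgroup.exists_right_complement'_of_coprime hcop
  have hj0 : j 0 = 1 := by
    have h := hj 0 0
    rw [add_zero, left_eq_mul] at h
    exact h
  have hcs : ∀ (h : Q) (v : V), ∃ w, j w = h * j v * h⁻¹ := fun h v =>
    (hjA _).1 ((inferInstance : A.Normal).conj_mem _ ((hjA _).2 ⟨v, rfl⟩) h)
  choose c hc using hcs
  let cH : H → V →+ V := fun h => AddMonoidHom.mk' (fun v => c h v) fun u v => hji (by
    rw [hc, hj, hj, hc, hc]; group)
  have hcH : ∀ (h : H) v, j (cH h v) = (h : Q) * j v * (h : Q)⁻¹ := fun h v => hc _ v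
  have hmulc : ∀ (g h : H) v, cH (g * h) v = cH g (cH h v) := fun g h v => hji (by
    rw [hcH, hcH, hcH, Subgroup.coe_mul]; group)
  have honec : ∀ v, cH 1 v = v := fun v => hji (by rw [hcH]; simp)
  let ρ : H →* (V ≃ₗ[ZMod p] V) := MonoidHom.mk'
    (fun h =>
      { toFun := cH h
        map_add' := map_add (cH h)
        map_smul' := ZMod.map_smul (cH h)
        invFun := cH h⁻¹
        left_inv := fun v => by rw [← hmulc, inv_mul_cancel, honec]
        right_inv := fun v => by rw [← hmulc, mul_inv_cancel, honec] })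
    fun g h => LinearEquiv.ext fun v => hmulc g h v
  have hρ : ∀ (h : H) (v : V), j (ρ h v) = (h : Q) * j v * (h : Q)⁻¹ := hcH
  have hρinj : Function.Injective ρ := by
    rw [← MonoidHom.ker_eq_bot_iff, Subgroup.eq_bot_iff_forall]
    intro h hh
    have hmem : (h : Q) ∈ A := by
      rw [← hC, Subgroup.mem_centralizer_iff]
      intro a ha
      obtain ⟨v, rfl⟩ := (hjA a).1 ha
      have h1 := hρ h v
      rw [MonoidHom.mem_ker.1 hh] at h1
      change j v = (h : Q) * j v * (h : Q)⁻¹ at h1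
      rw [eq_mul_inv_iff_mul_eq] at h1
      exact h1
    exact Subtype.ext (Subgroup.disjoint_def.1 hH.disjoint hmem h.2)
  let eA : V ≃ A := Equiv.ofBijective (fun v => ⟨j v, (hjA _).2 ⟨v, rfl⟩⟩)
    ⟨fun u v h => hji (congrArg Subtype.val h), fun a => by
      obtain ⟨v, hv⟩ := (hjA _).1 a.2
      exact ⟨v, Subtype.ext hv⟩⟩
  have hVcard : Nat.card V = p ^ n := (Nat.card_congr eA).trans hcard
  have hdim : Module.finrank (ZMod p) V = n := by
    have h := Module.natCard_eq_pow_finrank (K := ZMod p) (V := V)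
    rw [hVcard, Nat.card_zmod] at h
    exact (Nat.pow_right_injective hp.out.two_le h).symm
  let sub : Submodule (ZMod p) V → Subgroup Q := fun W =>
    { carrier := j '' (W : Set V)
      one_mem' := ⟨0, W.zero_mem, hj0⟩
      mul_mem' := by
        rintro _ _ ⟨u, hu, rfl⟩ ⟨v, hv, rfl⟩
        exact ⟨u + v, W.add_mem hu hv, hj u v⟩
      inv_mem' := by
        rintro _ ⟨u, hu, rfl⟩
        exact ⟨-u, W.neg_mem hu, eq_inv_of_mul_eq_one_left (by rw [← hj, neg_add_cancel, hj0])⟩ }
  have hsub : ∀ (W : Submodule (ZMod p) V) (v : V), j v ∈ sub W ↔ v ∈ W := fun W v =>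
    ⟨fun ⟨u, hu, huv⟩ => hji huv ▸ hu, fun h => ⟨v, h, rfl⟩⟩
  have hsubA : ∀ W, sub W ≤ A := fun W => by
    rintro _ ⟨u, -, rfl⟩; exact (hjA _).2 ⟨u, rfl⟩
  have hsubcard : ∀ W, Nat.card (sub W) = Nat.card W := fun W =>
    Nat.card_image_of_injective hji (W : Set V)
  have htrH : ∀ W W' : Submodule (ZMod p) V,
      Module.finrank (ZMod p) W = Module.finrank (ZMod p) W' → Module.finrank (ZMod p) W ≤ 2 →
        ∃ h : H, W.map (ρ h : V →ₗ[ZMod p] V) = W' := by
    intro W W' hd _
    have hc : Nat.card (sub W) = Nat.card (sub W') := by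
      rw [hsubcard, hsubcard, Module.natCard_eq_pow_finrank (K := ZMod p), hd,
        ← Module.natCard_eq_pow_finrank (K := ZMod p)]
    obtain ⟨q, hq⟩ := htr (sub W) (sub W') (hsubA W) (hsubA W') hc
    obtain ⟨⟨a, h⟩, rfl⟩ := hH.2 q
    obtain ⟨α, hα⟩ := (hjA _).1 a.2
    refine ⟨h, Submodule.eq_of_le_of_finrank_eq ?_ ?_⟩
    · rintro _ ⟨w, hw, rfl⟩
      have hmem : ((a : Q) * h) * j w * ((a : Q) * h)⁻¹ ∈ sub W' :=
        hq ▸ ⟨_, (hsub W w).2 hw, rfl⟩
      rw [show ((a : Q) * h) * j w * ((a : Q) * h)⁻¹ =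
        (a : Q) * ((h : Q) * j w * (h : Q)⁻¹) * (a : Q)⁻¹ by group, ← hρ h w, ← hα, ← hj, add_comm, hj,
        mul_inv_cancel_right] at hmem
      exact (hsub W' _).1 hmem
    · rw [← hd]
      exact (Submodule.equivMapOfInjective _ (ρ h).injective W).finrank_eq.symm
  have hHs : Group.IsSolvable H := inferInstance
  obtain ⟨⟨F₀, _, _, e₀, he₀⟩, hcases, htwo⟩ := semilinear_of_trans hHs ρ hρinj hdim hn htrH
  let F := GaloisField p n
  have hFcard : Nat.card F = p ^ n := GaloisField.card p n (by omega)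
  have : Fintype F := Fintype.ofFinite _
  let ι : F₀ ≃+* F := FiniteField.ringEquivOfCardEq (by
    rw [← Nat.card_eq_fintype_card, ← Nat.card_eq_fintype_card, hFcard, ← Nat.card_congr e₀.toEquiv,
      hVcard])
  let e : V ≃+ F := e₀.trans ι.toAddEquiv
  have he : ∀ g : H, ∃ (a : F) (σ : F ≃+* F), ∀ v : V, e (ρ g v) = a * σ (e v) := fun g => by
    obtain ⟨a, σ, h⟩ := he₀ g
    refine ⟨ι a, (ι.symm.trans σ).trans ι, fun v => ?_⟩
    show ι (e₀ (ρ g v)) = ι a * ι (σ (ι.symm (ι (e₀ v))))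
    rw [h v, ι.symm_apply_apply, map_mul]
  obtain ⟨hHdvd, χ, hχ⟩ := semilinear_card hFcard e (fun g v => ρ g v)
    (fun g h v => by rw [map_mul]; rfl) (fun v => by rw [map_one]; rfl)
    (fun g hg => hρinj (by rw [map_one]; exact LinearEquiv.ext hg)) he
  -- the action on the cosets of the complement
  let β₀ : F → Q ⧸ H := fun x => QuotientGroup.mk (j (e.symm x))
  have hβb : Function.Bijective β₀ := by
    refine (Nat.bijective_iff_injective_and_card _).2 ⟨fun x y hxy => ?_, ?_⟩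
    · have h1 : (j (e.symm x))⁻¹ * j (e.symm y) ∈ H := QuotientGroup.eq.1 hxy
      have h2 := Subgroup.disjoint_def.1 hH.disjoint
        (mul_mem (inv_mem ((hjA _).2 ⟨_, rfl⟩)) ((hjA _).2 ⟨_, rfl⟩)) h1
      exact e.symm.injective (hji (inv_mul_eq_one.1 h2))
    · rw [hFcard, ← Subgroup.index_eq_card, hH.index_eq_card, hcard]
  let β := Equiv.ofBijective β₀ hβb
  let f₀ : Q →* Equiv.Perm F := MonoidHom.mk'
    (fun q => (β.trans (MulAction.toPerm q)).trans β.symm) fun q r => Equiv.ext fun x => by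
      show β.symm ((q * r) • β x) = β.symm (q • β (β.symm (r • β x)))
      rw [β.apply_symm_apply, mul_smul]
  have hf₀ : ∀ (a : V) (h : H) x, f₀ (j a * h) x = e a + e (ρ h (e.symm x)) := fun a h x => by
    show β.symm ((j a * h) • β x) = _
    rw [Equiv.symm_apply_eq]
    show QuotientGroup.mk (j a * h * j (e.symm x)) = QuotientGroup.mk _
    rw [map_add, e.symm_apply_apply, e.symm_apply_apply, hj, hρ]
    refine QuotientGroup.eq.2 ?_
    show (j a * h * j (e.symm x))⁻¹ *
      (j a * ((h : Q) * j (e.symm x) * (h : Q)⁻¹)) ∈ H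
    rw [show (j a * h * j (e.symm x))⁻¹ *
      (j a * ((h : Q) * j (e.symm x) * (h : Q)⁻¹)) = (h : Q)⁻¹ by group]
    exact H.inv_mem h.2
  have hdec : ∀ q : Q, ∃ (a : V) (h : H), q = j a * h := fun q => by
    obtain ⟨⟨a, h⟩, rfl⟩ := hH.2 q
    obtain ⟨v, hv⟩ := (hjA _).1 a.2
    exact ⟨v, h, by rw [hv]⟩
  have hmem : ∀ q, f₀ q ∈ Cfsg.semiaffineGroup F := fun q => by
    obtain ⟨a, h, rfl⟩ := hdec q
    obtain ⟨u, hu⟩ := hχ h
    exact ⟨u, e a, χ h, fun x => by
      rw [hf₀, hu, e.apply_symm_apply, add_comm]⟩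
  refine ⟨hcases, ⟨f₀.codRestrict _ hmem, ?_, ?_⟩, ?_, ?_⟩
  · rw [← MonoidHom.ker_eq_bot_iff, Subgroup.eq_bot_iff_forall]
    intro q hq
    obtain ⟨a, h, rfl⟩ := hdec q
    have h' : ∀ x, e a + e (ρ h (e.symm x)) = x := fun x => by
      rw [← hf₀]
      exact congrFun (congrArg DFunLike.coe (congrArg Subtype.val (MonoidHom.mem_ker.1 hq))) x
    have h0 := h' 0
    rw [map_zero e.symm, map_zero (ρ h), map_zero e, add_zero] at h0
    have ha : a = 0 := e.map_eq_zero_iff.1 h0
    have hh : h = 1 := hρinj (by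
      rw [map_one]
      refine LinearEquiv.ext fun v => e.injective ?_
      have := h' (e v)
      rw [h0, zero_add, e.symm_apply_apply] at this
      exact this)
    rw [ha, hh, hj0]; simp
  · intro hp2 hn3 hQ q
    subst hp2; subst hn3
    have hHc : Nat.card H = 7 := by
      have := hH.card_mul
      rw [hcard, hQ] at this
      omega
    obtain ⟨a, h, rfl⟩ := hdec q
    have hχ1 : χ h = 1 := by
      have h1 : orderOf (χ h) ∣ 7 := (orderOf_map_dvd χ h).trans (hHc ▸ orderOf_dvd_natCard h)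
      have h2 : orderOf (χ h) ∣ 3 := (orderOf_dvd_natCard (χ h)).trans (card_ringAut hFcard).dvd
      exact orderOf_eq_one_iff.1 (Nat.eq_one_of_dvd_coprimes (show Nat.Coprime 7 3 by norm_num) h1 h2)
    obtain ⟨u, hu⟩ := hχ h
    refine ⟨u, e a, fun x => ?_⟩
    show f₀ (j a * h) x = _
    rw [hf₀, hu, hχ1, e.apply_symm_apply, add_comm]
    rfl
  · intro hp2
    have h := htwo hp2
    subst hp2
    rw [← hH.card_mul, hcard, mul_assoc (2 ^ n), mul_comm (2 ^ n) (Nat.card H * 6)]
    exact mul_dvd_mul_right h _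
  · rw [← hH.card_mul, hcard]
    exact mul_dvd_mul_left _ hHdvd

/-- The main structure result. -/
theorem affine_structure {Q : Type*} [Group Q] [Finite Q] (hs : Group.IsSolvable Q) (A : Subgroup Q)
    [A.Normal] (hel : Cfsg.IsElementaryAbelian p A) {n : ℕ} (hn : 3 ≤ n) (hcard : Nat.card A = p ^ n)
    (hC : Subgroup.centralizer (A : Set Q) = A) (hidx : ¬ p ∣ A.index)
    (htr : ∀ B C : Subgroup Q, B ≤ A → C ≤ A → Nat.card B = Nat.card C →
      ∃ q : Q, B.map (MulAut.conj q).toMonoidHom = C) :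
    (n = 3 ∨ (n = 5 ∧ p = 2)) ∧
    (∃ f : Q →* ↥(Cfsg.semiaffineGroup (GaloisField p n)), Function.Injective f ∧
      (p = 2 → n = 3 → Nat.card Q = 56 → ∀ q, (f q : Equiv.Perm (GaloisField p n)) ∈
        Cfsg.affineGroup (GaloisField p n))) ∧
    (p = 2 → (2 ^ n - 1) * (2 ^ n - 2) * 2 ^ n ∣ Nat.card Q * 6) ∧
    Nat.card Q ∣ p ^ n * (n * (p ^ n - 1)) := by
  letI : CommGroup A := { (inferInstance : Group A) with mul_comm := fun a b => hel.1.1.1 a b }
  letI : Module (ZMod p) (Additive A) := AddCommGroup.zmodModule fun x => by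
    show Additive.ofMul (x.toMul ^ p) = 0
    exact congrArg Additive.ofMul (Subtype.ext (hel.2 _ x.toMul.2) : x.toMul ^ p = 1)
  haveI : Finite (Additive A) := Finite.of_equiv A Additive.ofMul
  exact affine_structure' hs A hn hcard hC hidx htr (V := Additive A) (fun v => ((v.toMul : A) : Q))
    (fun u v => rfl) (fun u v h => Additive.toMul.injective (Subtype.ext h))
    (fun q => ⟨fun h => ⟨Additive.ofMul ⟨q, h⟩, rfl⟩, fun ⟨v, hv⟩ => hv ▸ v.toMul.2⟩)

theorem semiaffine_card_le {F : Type*} [Field F] [Finite F] {n : ℕ} (hF : Nat.card F = p ^ n) :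
    Nat.card (Cfsg.semiaffineGroup F) ≤ (p ^ n - 1) * p ^ n * n ∧
      Nat.card (Cfsg.affineGroup F) ≤ (p ^ n - 1) * p ^ n := by
  constructor
  · choose a b φ h using fun s : Cfsg.semiaffineGroup F => s.2
    have hc : Nat.card (Fˣ × F × (F ≃+* F)) = (p ^ n - 1) * p ^ n * n := by
      rw [Nat.card_prod, Nat.card_prod, Nat.card_units, card_ringAut hF, hF, mul_assoc]
    rw [← hc]
    have : Finite (F ≃+* F) := Finite.of_injective _ DFunLike.coe_injective
    refine Nat.card_le_card_of_injective (fun s => (a s, b s, φ s)) fun s t hst => ?_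
    simp only [Prod.mk.injEq] at hst
    exact Subtype.ext (Equiv.ext fun x => by rw [h, h, hst.1, hst.2.1, hst.2.2])
  · choose a b h using fun s : Cfsg.affineGroup F => s.2
    have hc : Nat.card (Fˣ × F) = (p ^ n - 1) * p ^ n := by rw [Nat.card_prod, Nat.card_units, hF]
    rw [← hc]
    refine Nat.card_le_card_of_injective (fun s => (a s, b s)) fun s t hst => ?_
    simp only [Prod.mk.injEq] at hst
    exact Subtype.ext (Equiv.ext fun x => by rw [h, h, hst.1, hst.2])

end Cfsg.Agent.Lib.PlaneTrans
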